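import Cfsg.Agent.H975.Co1.GF
import Cfsg.Agent.H765.Ess
import Cfsg.Agent.H802.FusEss

/-!
# Essential subgroups containing `A` (S5227, task 3770; helper615)
-/

set_option autoImplicit false
set_option linter.style.longLine false

namespace Cfsg.Agent.H615.Co1

open Subgroup Cfsg Cfsg.Agent.H752 Cfsg.Agent.H776.Co P
open Cfsg.Agent.H975.Co1 (mem_of_A exists_GF ext_GF)

/-- An element of `S` inducing on an essential subgroup an automorphism that stabilizes a chain of invariant subgroups. -/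
theorem mem_of_chain' {Ω : Type*} [Group Ω] {S : Subgroup Ω} [Finite S] {p : ℕ} [Fact p.Prime] (hS : IsPGroup p S)
    {F : FusionSystem S} {E : Subgroup Ω} (hE : F.IsEssential p E) (n : ℕ) (c : ℕ → Subgroup Ω)
    (h0 : c 0 = E) (hn : c n = ⊥)
    (hinv : ∀ f : Ω → Ω, Mp F E f → (∀ x ∈ E, f x ∈ E) → ∀ i ≤ n, ∀ x ∈ c i, f x ∈ c i)
    {g : Ω} (hg : g ∈ S) (hgE : g ∈ normalizer (E : Set Ω))
    (hst : ∀ i < n, ∀ x ∈ c i, x⁻¹ * (g * x * g⁻¹) ∈ c (i + 1)) : g ∈ E := by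
  obtain ⟨τ, hτ⟩ := Cfsg.Agent.H802.exists_conjAut hgE
  have hES : E ≤ S := hE.1.1
  refine Cfsg.Agent.H765.Ess.mem_of_chain hS hE n (fun i => (c i).subgroupOf E) ?_ ?_ ?_ hg hτ ?_
  · show (c 0).subgroupOf E = ⊤
    rw [h0, subgroupOf_self]
  · show (c n).subgroupOf E = ⊥
    rw [hn, bot_subgroupOf]
  · intro i hi α hα x hx
    have hm : Mp F E (ex fun x => ((α x : E) : Ω)) := (mp_iff_autGroup hES α).1 hα
    have h3 := hinv _ hm (fun y hy => by rw [ex_apply _ hy]; exact (α ⟨y, hy⟩).2) i hi x hx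
    rw [ex_coe] at h3
    exact h3
  · intro i hi x hx
    show (x : Ω)⁻¹ * ((τ x : E) : Ω) ∈ c (i + 1)
    rw [hτ x]
    exact hst i hi x hx

theorem vec_neg (v : Lin.V) : vec (-v) = (vec v)⁻¹ := by
  rw [eq_inv_iff_mul_eq_one, ← vec_add, neg_add_cancel, vec_zero]

/-- the commutator of an element with an element of `A` -/
theorem comm_A (q : P) {x : P} (hx : x ∈ A) : q * x * q⁻¹ * x⁻¹ = vec (Lin.tf q.a q.b q.c (crd x) - crd x) := by
  conv_lhs => rw [← vec_crd hx]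
  rw [conj_vec, sub_eq_add_neg, vec_add, vec_neg]

theorem comm_A' (q : P) {x : P} (hx : x ∈ A) : x⁻¹ * (q * x * q⁻¹) = vec (Lin.tf q.a q.b q.c (crd x) - crd x) := by
  conv_lhs => rw [← vec_crd hx]
  rw [conj_vec, ← vec_neg, ← vec_add, sub_eq_add_neg, add_comm]

theorem commute_iff (q : P) {x : P} (hx : x ∈ A) : q * x = x * q ↔ Lin.tf q.a q.b q.c (crd x) - crd x = 0 := by
  rw [← vec_injective.eq_iff, vec_zero, ← comm_A q hx, mul_inv_eq_one, mul_inv_eq_iff_eq_mul]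

/-- `[A, U2]` -/
def M3 : Subgroup P where
  carrier := {x | x.a = 0 ∧ x.b = 0 ∧ x.c = 0 ∧ x.m22 = 0 ∧ x.m23 = 0 ∧ x.m33 = 0}
  mul_mem' := by
    rintro x y ⟨h1, h2, h3, h7, h9, h11⟩ ⟨h4, h5, h6, h8, h10, h12⟩
    exact ⟨by simp [h1, h4], by simp [h2, h5], by simp [h1, h3, h6], by simp [h2, h7, h8],
      by simp [h2, h9, h10], by simp [h11, h12]⟩
  one_mem' := ⟨rfl, rfl, rfl, rfl, rfl, rfl⟩
  inv_mem' := by
    rintro x ⟨h1, h2, h3, h7, h9, h11⟩
    exact ⟨by simp [h1], by simp [h2], by simp [h1, h3], by simp [h2, h7], by simp [h2, h9], by simp [h11]⟩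

/-- `A ⟨z⟩` -/
def Y : Subgroup P where
  carrier := {x | x.a = 0 ∧ x.b = 0}
  mul_mem' := by
    rintro x y ⟨h1, h2⟩ ⟨h4, h5⟩
    exact ⟨by simp [h1, h4], by simp [h2, h5]⟩
  one_mem' := ⟨rfl, rfl⟩
  inv_mem' := by
    rintro x ⟨h1, h2⟩
    exact ⟨by simp [h1], by simp [h2]⟩

/-- the maximal subgroup `A⟨z, t⟩` -/
def H (a b : ZMod 3) : Subgroup P where
  carrier := {x | x.a * b = x.b * a}
  mul_mem' := by
    intro x y (h1 : x.a * b = x.b * a) (h2 : y.a * b = y.b * a)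
    show (x.a + y.a) * b = (x.b + y.b) * a
    rw [add_mul, add_mul, h1, h2]
  one_mem' := by
    show (0 : ZMod 3) * b = 0 * a
    rw [zero_mul, zero_mul]
  inv_mem' := by
    intro x (h1 : x.a * b = x.b * a)
    show -x.a * b = -x.b * a
    rw [neg_mul, neg_mul, h1]

theorem mem_M3 {x : P} : x ∈ M3 ↔ x.a = 0 ∧ x.b = 0 ∧ x.c = 0 ∧ x.m22 = 0 ∧ x.m23 = 0 ∧ x.m33 = 0 := Iff.rfl
theorem mem_Y {x : P} : x ∈ Y ↔ x.a = 0 ∧ x.b = 0 := Iff.rfl
theorem mem_H {a b : ZMod 3} {x : P} : x ∈ H a b ↔ x.a * b = x.b * a := Iff.rfl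

theorem W5_le : W5 ≤ A := fun _ hx => ⟨hx.1, hx.2.1, hx.2.2.1⟩
theorem W3_le : W3 ≤ A := fun _ hx => ⟨hx.1, hx.2.1, hx.2.2.1⟩
theorem W1_le : W1 ≤ A := fun _ hx => ⟨hx.1, hx.2.1, hx.2.2.1⟩
theorem M3_le : M3 ≤ A := fun _ hx => ⟨hx.1, hx.2.1, hx.2.2.1⟩

theorem sq_eq_one' {a : ZMod 3} (h : a ≠ 0) : a * a = 1 := by
  revert a
  decide

/-! ### case `R1` -/

theorem L5 {q x : P} (hq : q.a = 0) (hx : x ∈ A) : q * x * q⁻¹ * x⁻¹ ∈ W5 := by
  rw [comm_A q hx, mem_W5]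
  simp [vec, Lin.tf, crd, hq]

theorem L3 {q x : P} (hq : q.a = 0) (hx : x ∈ W5) : q * x * q⁻¹ * x⁻¹ ∈ W3 := by
  rw [comm_A q (W5_le hx), mem_W3]
  simp [vec, Lin.tf, crd, hq, hx.2.2.2]

theorem L1 {q x : P} (hq : q.a = 0) (hx : x ∈ W3) : q * x = x * q := by
  rw [commute_iff q (W3_le hx)]
  obtain ⟨h1, h2, h3, h4, h5, h6⟩ := hx
  funext i
  fin_cases i <;> simp [Lin.tf, crd, hq, h4, h5, h6]

theorem L4 {u x : P} (hu : u.a = 0) (hu' : u ∉ A) (hx : x ∈ A) (h : u * x * u⁻¹ * x⁻¹ ∈ W3) : x ∈ W5 := by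
  rw [comm_A u hx, mem_W3] at h
  simp [vec, Lin.tf, crd, hu] at h
  obtain ⟨h1, h2⟩ := h
  refine ⟨hx.1, hx.2.1, hx.2.2, ?_⟩
  by_contra h3
  apply hu'
  refine ⟨hu, ?_, ?_⟩
  · rcases h2 with h2 | h2
    · exact h2
    · exact absurd h2 h3
  · rcases h1 with h1 | h1
    · exact h1
    · exact absurd h1 h3

theorem arith2 : ∀ b c m n : ZMod 3, (b ≠ 0 ∨ c ≠ 0) → 2 * c * m = 0 → c * n + b * m = 0 → 2 * b * n = 0 → m = 0 ∧ n = 0 := by
  decide

theorem L2 {u x : P} (hu : u.a = 0) (hu' : u ∉ A) (hx : x ∈ A) (h : u * x = x * u) : x ∈ W3 := by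
  have h5 : x ∈ W5 := L4 hu hu' hx (by
    rw [h, mul_inv_cancel_right, mul_inv_cancel]
    exact W3.one_mem)
  rw [commute_iff u hx] at h
  have e0 := congrFun h 0
  have e1 := congrFun h 1
  have e2 := congrFun h 2
  have h33 := h5.2.2.2
  have hbc : u.b ≠ 0 ∨ u.c ≠ 0 := by
    by_contra hcon
    push Not at hcon
    exact hu' ⟨hu, hcon.1, hcon.2⟩
  have k := arith2 u.b u.c x.m13 x.m23 hbc
    (by simpa [Lin.tf, crd, hu, h33, -mul_eq_zero] using e0)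
    (by
      have e : x.m12 + u.c * x.m23 + u.b * x.m13 - x.m12 = 0 := by simpa [Lin.tf, crd, hu, h33, -mul_eq_zero] using e1
      linear_combination e)
    (by simpa [Lin.tf, crd, hu, h33, -mul_eq_zero] using e2)
  exact ⟨hx.1, hx.2.1, hx.2.2, k.1, k.2, h33⟩

theorem L6 {x y : P} (hx : x.a = 0) (hy : y.a = 0) : x⁻¹ * (y * x * y⁻¹) ∈ A := by
  refine ⟨?_, ?_, ?_⟩
  · simp [hx, hy]
  · simp
  · simp [hx, hy]

/-! ### case `R2` -/

theorem K5 {q x : P} (hq : q.b = 0) (hx : x ∈ A) : q * x * q⁻¹ * x⁻¹ ∈ M3 := by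
  rw [comm_A q hx, mem_M3]
  simp [vec, Lin.tf, crd, hq]

theorem K3 {q x : P} (hq : q.b = 0) (hx : x ∈ M3) : q * x * q⁻¹ * x⁻¹ ∈ W1 := by
  rw [comm_A q (M3_le hx), mem_W1]
  obtain ⟨h1, h2, h3, h4, h5, h6⟩ := hx
  simp [vec, Lin.tf, crd, hq, h4, h5, h6]

theorem K1 (q : P) {x : P} (hx : x ∈ W1) : q * x = x * q := by
  rw [commute_iff q (W1_le hx)]
  obtain ⟨h1, h2, h3, h4, h5, h6, h7, h8⟩ := hx
  funext i
  fin_cases i <;> simp [Lin.tf, crd, h4, h5, h6, h7, h8]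

theorem K6 {x y : P} (hx : x.b = 0) (hy : y.b = 0) : x⁻¹ * (y * x * y⁻¹) ∈ A := by
  refine ⟨?_, ?_, ?_⟩
  · simp
  · simp [hx, hy]
  · simp [hx, hy]

theorem arith3 : ∀ a c x0 x1 x3 : ZMod 3, (a ≠ 0 ∨ c ≠ 0) → ∃ v : Fin 6 → ZMod 3,
    2 * a * v 1 + 2 * c * v 3 + a ^ 2 * v 2 + 2 * a * c * v 4 + c ^ 2 * v 5 = x0 ∧ a * v 2 + c * v 4 = x1 ∧ a * v 4 + c * v 5 = x3 := by
  intro a c x0 x1 x3 h
  have h30 : (3 : ZMod 3) = 0 := rfl
  by_cases ha : a = 0
  · have hc : c * c = 1 := sq_eq_one' (by rcases h with h | h; exact absurd ha h; exact h)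
    subst ha
    refine ⟨![0, 0, 0, c * (2 * (x0 - c * x3)), c * x1, c * x3], ?_, ?_, ?_⟩
    · simp
      linear_combination (4 * (x0 - c * x3) + c * x3) * hc + (x0 - c * x3) * h30
    · simp
      linear_combination x1 * hc
    · simp
      linear_combination x3 * hc
  · have ha' : a * a = 1 := sq_eq_one' ha
    refine ⟨![0, a * 2 * (x0 - (a * (x1 - c * (a * x3)) + 2 * c * x3)), a * (x1 - c * (a * x3)), 0, a * x3, 0], ?_, ?_, ?_⟩
    · simp
      linear_combination (4 * (x0 - (a * (x1 - c * (a * x3)) + 2 * c * x3)) + a * (x1 - c * (a * x3)) + 2 * c * x3) * ha' + (x0 - (a * (x1 - c * (a * x3)) + 2 * c * x3)) * h30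
    · simp
      linear_combination (x1 - c * a * x3) * ha'
    · simp
      linear_combination x3 * ha'

theorem K4 {u x : P} (hu : u.b = 0) (hu' : u ∉ A) (hx : x ∈ M3) : ∃ y ∈ A, u * y * u⁻¹ * y⁻¹ = x := by
  have hac : u.a ≠ 0 ∨ u.c ≠ 0 := by
    by_contra hcon
    push Not at hcon
    exact hu' ⟨hcon.1, hu, hcon.2⟩
  obtain ⟨v, h0, h1, h3⟩ := arith3 u.a u.c x.m11 x.m12 x.m13 hac
  refine ⟨vec v, vec_mem v, ?_⟩
  rw [comm_A u (vec_mem v), crd_vec, ← vec_crd (M3_le hx), vec_injective.eq_iff]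
  obtain ⟨k1, k2, k3, k4, k5, k6⟩ := hx
  funext i
  fin_cases i
  · simp [Lin.tf, crd, hu]
    linear_combination h0
  · simp [Lin.tf, crd, hu]
    linear_combination h1
  · simp [Lin.tf, crd, hu, k4]
  · simp [Lin.tf, crd, hu]
    linear_combination h3
  · simp [Lin.tf, crd, hu, k5]
  · simp [Lin.tf, crd, hu, k6]

theorem K2 {u x : P} (hu : u.b = 0) (hu' : u ∉ A) (hx : x ∈ W1) : ∃ y ∈ M3, u * y * u⁻¹ * y⁻¹ = x := by
  have hac : u.a ≠ 0 ∨ u.c ≠ 0 := by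
    by_contra hcon
    push Not at hcon
    exact hu' ⟨hcon.1, hu, hcon.2⟩
  have key : ∀ a c m : ZMod 3, (a ≠ 0 ∨ c ≠ 0) → ∃ v w : ZMod 3, 2 * a * v + 2 * c * w = m := by decide
  obtain ⟨v, w, h⟩ := key u.a u.c x.m11 hac
  refine ⟨vec ![0, v, 0, w, 0, 0], ⟨rfl, rfl, rfl, rfl, rfl, rfl⟩, ?_⟩
  rw [comm_A u (vec_mem _), crd_vec, ← vec_crd (W1_le hx), vec_injective.eq_iff]
  obtain ⟨k1, k2, k3, k4, k5, k6, k7, k8⟩ := hx
  funext i
  fin_cases i
  · simp [Lin.tf, crd]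
    exact h
  · simp [Lin.tf, crd, hu, k4]
  · simp [Lin.tf, crd, k5]
  · simp [Lin.tf, crd, k6]
  · simp [Lin.tf, crd, k7]
  · simp [Lin.tf, crd, k8]

/-! ### the three cases -/

theorem hPtop : IsPGroup 3 (⊤ : Subgroup P) := isPGroup_P.of_equiv Subgroup.topEquiv.symm

/-- an element commuting with everything modulo `A` normalizes `Q ≥ A` -/
theorem mem_normalizer_of {Q : Subgroup P} {g : P} (h : ∀ x ∈ Q, x⁻¹ * (g * x * g⁻¹) ∈ Q) :
    g ∈ normalizer (Q : Set P) := by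
  have h1 : ∀ x ∈ Q, g * x * g⁻¹ ∈ Q := fun x hx => by
    have := Q.mul_mem hx (h x hx)
    rwa [mul_inv_cancel_left] at this
  rw [Subgroup.mem_normalizer_iff]
  have h2 : Q.map (MulAut.conj g).toMonoidHom ≤ Q := by
    rintro _ ⟨x, hx, rfl⟩
    exact h1 x hx
  have h3 : Q.map (MulAut.conj g).toMonoidHom = Q :=
    Subgroup.eq_of_le_of_card_ge h2 (Nat.card_congr (Q.equivMapOfInjective _ (MulAut.conj g).injective).toEquiv).le
  intro x
  refine ⟨h1 x, fun hx => ?_⟩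
  have hx : g * x * g⁻¹ ∈ Q := hx
  show x ∈ Q
  rw [← h3] at hx
  obtain ⟨y, hy, hyx⟩ := hx
  have h4 : g * y * g⁻¹ = g * x * g⁻¹ := hyx
  have h5 : y = x := mul_left_cancel (mul_right_cancel h4)
  exact h5 ▸ hy

theorem case_R1 {F : FusionSystem (⊤ : Subgroup P)} {Q : Subgroup P} (hQ : F.IsEssential 3 Q) (hA : A ≤ Q) (hR : Q ≤ R1)
    (hQA : Q ≠ A) : Q = R1 := by
  by_contra hne
  obtain ⟨u, huQ, huA⟩ := SetLike.exists_of_lt (lt_of_le_of_ne hA (Ne.symm hQA))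
  obtain ⟨g, hgR, hgQ⟩ := SetLike.exists_of_lt (lt_of_le_of_ne hR hne)
  have hua : u.a = 0 := hR huQ
  have hga : g.a = 0 := hgR
  apply hgQ
  refine mem_of_chain' hPtop hQ 4 (fun i => match i with
    | 0 => Q
    | 1 => A
    | 2 => W5
    | 3 => W3
    | _ => ⊥) rfl rfl ?_ (mem_top g) (mem_normalizer_of fun x hx => hA (L6 (hR hx) hga)) ?_
  · intro f hf hfQ
    have hfA := mem_of_A hA hf
    have hsurj : ∀ y ∈ Q, ∃ x ∈ Q, f x = y := fun y hy => hf.surj hfQ hy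
    obtain ⟨v, hvQ, hv⟩ := hsurj u huQ
    have hva : v.a = 0 := hR hvQ
    have h3 : ∀ x ∈ W3, f x ∈ W3 := by
      intro x hx
      refine L2 hua huA (hfA x (W3_le hx)) ?_
      rw [← hv, ← hf.mul hvQ (hA (W3_le hx)), ← hf.mul (hA (W3_le hx)) hvQ, L1 hva hx]
    have h2 : ∀ x ∈ W5, f x ∈ W5 := by
      intro x hx
      have hxQ : x ∈ Q := hA (W5_le hx)
      refine L4 hua huA (hfA x (W5_le hx)) ?_
      rw [← hv, ← hf.inv hvQ, ← hf.inv hxQ, ← hf.mul hvQ hxQ, ← hf.mul (Q.mul_mem hvQ hxQ) (Q.inv_mem hvQ),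
        ← hf.mul (Q.mul_mem (Q.mul_mem hvQ hxQ) (Q.inv_mem hvQ)) (Q.inv_mem hxQ)]
      exact h3 _ (L3 hva hx)
    intro i hi
    interval_cases i
    · exact hfQ
    · exact hfA
    · exact h2
    · exact h3
    · intro x hx
      rw [show x = 1 from mem_bot.1 hx, hf.one]
      exact one_mem _
  · intro i hi
    interval_cases i
    · intro x hx
      exact L6 (hR hx) hga
    · intro x hx
      show x⁻¹ * (g * x * g⁻¹) ∈ W5
      rw [comm_A' g hx, ← comm_A g hx]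
      exact L5 hga hx
    · intro x hx
      show x⁻¹ * (g * x * g⁻¹) ∈ W3
      rw [comm_A' g (W5_le hx), ← comm_A g (W5_le hx)]
      exact L3 hga hx
    · intro x hx
      show x⁻¹ * (g * x * g⁻¹) ∈ ⊥
      rw [L1 hga hx, mul_inv_cancel_right, inv_mul_cancel]
      exact one_mem _

theorem case_R2 {F : FusionSystem (⊤ : Subgroup P)} {Q : Subgroup P} (hQ : F.IsEssential 3 Q) (hA : A ≤ Q) (hR : Q ≤ R2)
    (hQA : Q ≠ A) : Q = R2 := by
  by_contra hne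
  obtain ⟨u, huQ, huA⟩ := SetLike.exists_of_lt (lt_of_le_of_ne hA (Ne.symm hQA))
  obtain ⟨g, hgR, hgQ⟩ := SetLike.exists_of_lt (lt_of_le_of_ne hR hne)
  have hua : u.b = 0 := hR huQ
  have hga : g.b = 0 := hgR
  apply hgQ
  refine mem_of_chain' hPtop hQ 4 (fun i => match i with
    | 0 => Q
    | 1 => A
    | 2 => M3
    | 3 => W1
    | _ => ⊥) rfl rfl ?_ (mem_top g) (mem_normalizer_of fun x hx => hA (K6 (hR hx) hga)) ?_
  · intro f hf hfQ
    have hfA := mem_of_A hA hf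
    have hfu : (f u).b = 0 := hR (hfQ u huQ)
    have hcomm : ∀ y ∈ Q, f (u * y * u⁻¹ * y⁻¹) = f u * f y * (f u)⁻¹ * (f y)⁻¹ := by
      intro y hy
      rw [← hf.inv huQ, ← hf.inv hy, ← hf.mul huQ hy, ← hf.mul (Q.mul_mem huQ hy) (Q.inv_mem huQ),
        ← hf.mul (Q.mul_mem (Q.mul_mem huQ hy) (Q.inv_mem huQ)) (Q.inv_mem hy)]
    have h2 : ∀ x ∈ M3, f x ∈ M3 := by
      intro x hx
      obtain ⟨y, hy, rfl⟩ := K4 hua huA hx
      rw [hcomm y (hA hy)]
      exact K5 hfu (hfA y hy)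
    have h3 : ∀ x ∈ W1, f x ∈ W1 := by
      intro x hx
      obtain ⟨y, hy, rfl⟩ := K2 hua huA hx
      rw [hcomm y (hA (M3_le hy))]
      exact K3 hfu (h2 y hy)
    intro i hi
    interval_cases i
    · exact hfQ
    · exact hfA
    · exact h2
    · exact h3
    · intro x hx
      rw [show x = 1 from mem_bot.1 hx, hf.one]
      exact one_mem _
  · intro i hi
    interval_cases i
    · intro x hx
      exact K6 (hR hx) hga
    · intro x hx
      show x⁻¹ * (g * x * g⁻¹) ∈ M3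
      rw [comm_A' g hx, ← comm_A g hx]
      exact K5 hga hx
    · intro x hx
      show x⁻¹ * (g * x * g⁻¹) ∈ W1
      rw [comm_A' g (M3_le hx), ← comm_A g (M3_le hx)]
      exact K3 hga hx
    · intro x hx
      show x⁻¹ * (g * x * g⁻¹) ∈ ⊥
      rw [K1 g hx, mul_inv_cancel_right, inv_mul_cancel]
      exact one_mem _

/-- the centralizer in `A` of a regular element is small -/
theorem small_centralizer {y : P} (ha : y.a ≠ 0) (hb : y.b ≠ 0) {x x' : P} (hx : x ∈ A) (hx' : x' ∈ A) (h : y * x = x * y)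
    (h' : y * x' = x' * y) (h0 : x.m11 = x'.m11) (h2 : x.m22 = x'.m22) : x = x' := by
  rw [commute_iff y hx] at h
  rw [commute_iff y hx'] at h'
  have key : ∀ a b c x0 x1 x2 x3 x4 x5 : ZMod 3, a ≠ 0 → b ≠ 0 →
      2 * a * x1 + 2 * c * x3 + a ^ 2 * x2 + 2 * a * c * x4 + c ^ 2 * x5 = 0 →
      a * x2 + c * x4 + b * (x3 + a * x4 + c * x5) = 0 → a * x4 + c * x5 = 0 → b * x5 = 0 →
      x5 = 0 ∧ x4 = 0 ∧ x3 = - a * b * x2 ∧ x1 = a * (2 * c * x3 + a ^ 2 * x2) := by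
    intro a b c x0 x1 x2 x3 x4 x5 ha hb e0 e1 e3 e4
    have ha' : a * a = 1 := sq_eq_one' ha
    have hb' : b * b = 1 := sq_eq_one' hb
    have h30 : (3 : ZMod 3) = 0 := rfl
    have k5 : x5 = 0 := by linear_combination b * e4 - x5 * hb'
    have k4 : x4 = 0 := by linear_combination a * e3 - x4 * ha' - a * c * k5
    subst k5 k4
    refine ⟨rfl, rfl, ?_, ?_⟩
    · linear_combination b * e1 - x3 * hb'
    · linear_combination (-a) * e0 + (2 * x1) * ha' + x1 * h30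
  have key2 : ∀ x : P, x ∈ A → Lin.tf y.a y.b y.c (crd x) - crd x = 0 →
      x.m33 = 0 ∧ x.m23 = 0 ∧ x.m13 = - y.a * y.b * x.m22 ∧ x.m12 = y.a * (2 * y.c * x.m13 + y.a ^ 2 * x.m22) := by
    intro x hx h
    refine key y.a y.b y.c x.m11 x.m12 x.m22 x.m13 x.m23 x.m33 ha hb ?_ ?_ ?_ ?_
    · have e := congrFun h 0
      simp [Lin.tf, crd, -mul_eq_zero] at e
      linear_combination e
    · have e := congrFun h 1
      simp [Lin.tf, crd, -mul_eq_zero] at e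
      linear_combination e
    · have e := congrFun h 3
      simp [Lin.tf, crd, -mul_eq_zero] at e
      linear_combination e
    · have e := congrFun h 4
      simp [Lin.tf, crd, -mul_eq_zero] at e
      linear_combination e
  obtain ⟨p1, p2, p3, p4⟩ := key2 x hx h
  obtain ⟨q1, q2, q3, q4⟩ := key2 x' hx' h'
  obtain ⟨r1, r2, r3⟩ := hx
  obtain ⟨s1, s2, s3⟩ := hx'
  ext
  · rw [r1, s1]
  · rw [r2, s2]
  · rw [r3, s3]
  · exact h0
  · rw [p4, q4, p3, q3, h2]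
  · exact h2
  · rw [p3, q3, h2]
  · rw [p2, q2]
  · rw [p1, q1]


theorem A_le_Y : A ≤ Y := fun _ hx => ⟨hx.1, hx.2.1⟩

theorem Y_le_H (a b : ZMod 3) : Y ≤ H a b := by
  intro x hx
  rw [mem_H, hx.1, hx.2, zero_mul, zero_mul]

theorem case_H {F : FusionSystem (⊤ : Subgroup P)} {a b : ZMod 3} (ha : a ≠ 0) (hb : b ≠ 0) (hQ : F.IsEssential 3 (H a b)) :
    False := by
  have hA : A ≤ H a b := A_le_Y.trans (Y_le_H a b)
  set g : P := ⟨0, 1, 0, 0, 0, 0, 0, 0, 0⟩ with hg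
  set z : P := ⟨0, 0, 1, 0, 0, 0, 0, 0, 0⟩ with hz
  have hga : g.a = 0 := rfl
  have hzY : z ∈ Y := ⟨rfl, rfl⟩
  have hzQ : z ∈ H a b := Y_le_H a b hzY
  have hzA : z ∉ A := fun h => one_ne_zero h.2.2
  suffices hgQ : g ∈ H a b by
    rw [mem_H] at hgQ
    simp [hg] at hgQ
    exact ha hgQ.symm
  have hPY : ∀ x : P, x⁻¹ * (g * x * g⁻¹) ∈ Y := fun x => ⟨by simp, by simp⟩
  refine mem_of_chain' hPtop hQ 5 (fun i => match i with
    | 0 => H a b
    | 1 => Y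
    | 2 => A
    | 3 => W5
    | 4 => W3
    | _ => ⊥) rfl rfl ?_ (mem_top g) (mem_normalizer_of fun x _ => Y_le_H a b (hPY x)) ?_
  · intro f hf hfQ
    have hfA := mem_of_A hA hf
    have hfY : ∀ y ∈ Y, f y ∈ Y := by
      intro y hy
      have hyQ := Y_le_H a b hy
      have hfy := mem_H.1 (hfQ y hyQ)
      by_contra hnot
      have hfa : (f y).a ≠ 0 := by
        intro h0
        apply hnot
        refine ⟨h0, ?_⟩
        rw [h0, zero_mul] at hfy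
        rcases mul_eq_zero.1 hfy.symm with h1 | h1
        · exact h1
        · exact absurd h1 ha
      have hfb : (f y).b ≠ 0 := by
        intro h0
        rw [h0, zero_mul] at hfy
        rcases mul_eq_zero.1 hfy with h1 | h1
        · exact hfa h1
        · exact hb h1
      have hW : ∀ v : Fin 3 → ZMod 3, (⟨0, 0, 0, v 0, v 1, v 2, 0, 0, 0⟩ : P) ∈ W3 := fun v => ⟨rfl, rfl, rfl, rfl, rfl, rfl⟩
      have hinj : Function.Injective (fun v : Fin 3 → ZMod 3 => (((f ⟨0, 0, 0, v 0, v 1, v 2, 0, 0, 0⟩).m11,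
          (f ⟨0, 0, 0, v 0, v 1, v 2, 0, 0, 0⟩).m22) : ZMod 3 × ZMod 3)) := by
        intro v v' hvv
        have e1 := congrArg Prod.fst hvv
        have e2 := congrArg Prod.snd hvv
        have hc : ∀ w ∈ W3, f y * f w = f w * f y := by
          intro w hw
          rw [← hf.mul hyQ (hA (W3_le hw)), ← hf.mul (hA (W3_le hw)) hyQ, L1 hy.1 hw]
        have e3 := small_centralizer hfa hfb (hfA _ (W3_le (hW v))) (hfA _ (W3_le (hW v'))) (hc _ (hW v)) (hc _ (hW v')) e1 e2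
        have e4 := hf.inj (hA (W3_le (hW v))) (hA (W3_le (hW v'))) e3
        funext i
        fin_cases i
        · exact congrArg P.m11 e4
        · exact congrArg P.m12 e4
        · exact congrArg P.m22 e4
      have hcard := Fintype.card_le_of_injective _ hinj
      simp [ZMod.card] at hcard
    have hfzA : f z ∉ A := by
      intro h
      obtain ⟨x, hx, hxz⟩ := (hf.res hA).surj hfA h
      rw [hf.inj (hA hx) hzQ hxz] at hx
      exact hzA hx
    have h4 : ∀ x ∈ W3, f x ∈ W3 := by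
      intro x hx
      refine L2 (hfY z hzY).1 hfzA (hfA x (W3_le hx)) ?_
      rw [← hf.mul hzQ (hA (W3_le hx)), ← hf.mul (hA (W3_le hx)) hzQ, L1 hzY.1 hx]
    have h3 : ∀ x ∈ W5, f x ∈ W5 := by
      intro x hx
      have hxQ : x ∈ H a b := hA (W5_le hx)
      refine L4 (hfY z hzY).1 hfzA (hfA x (W5_le hx)) ?_
      rw [← hf.inv hzQ, ← hf.inv hxQ, ← hf.mul hzQ hxQ, ← hf.mul (mul_mem hzQ hxQ) (inv_mem hzQ),
        ← hf.mul (mul_mem (mul_mem hzQ hxQ) (inv_mem hzQ)) (inv_mem hxQ)]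
      exact h4 _ (L3 hzY.1 hx)
    intro i hi
    interval_cases i
    · exact hfQ
    · exact hfY
    · exact hfA
    · exact h3
    · exact h4
    · intro x hx
      rw [show x = 1 from mem_bot.1 hx, hf.one]
      exact one_mem _
  · intro i hi
    interval_cases i
    · intro x _
      exact hPY x
    · intro x hx
      exact L6 hx.1 hga
    · intro x hx
      show x⁻¹ * (g * x * g⁻¹) ∈ W5
      rw [comm_A' g hx, ← comm_A g hx]
      exact L5 hga hx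
    · intro x hx
      show x⁻¹ * (g * x * g⁻¹) ∈ W3
      rw [comm_A' g (W5_le hx), ← comm_A g (W5_le hx)]
      exact L3 hga hx
    · intro x hx
      show x⁻¹ * (g * x * g⁻¹) ∈ ⊥
      rw [L1 hga hx, mul_inv_cancel_right, inv_mul_cancel]
      exact one_mem _

theorem pow_a (x : P) (n : ℕ) : (x ^ n).a = n * x.a := by
  induction n with
  | zero => simp
  | succ n ih => rw [pow_succ, mul_a, ih]; push_cast; ring

theorem pow_b (x : P) (n : ℕ) : (x ^ n).b = n * x.b := by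
  induction n with
  | zero => simp
  | succ n ih => rw [pow_succ, mul_b, ih]; push_cast; ring

theorem pow_c {x : P} (hx : x.a = 0) (n : ℕ) : (x ^ n).c = n * x.c := by
  induction n with
  | zero => simp
  | succ n ih => rw [pow_succ, mul_c, ih, pow_a, hx]; push_cast; ring

theorem mem_of_mul_pow {Q : Subgroup P} {x t : P} {n : ℕ} (ht : t ∈ Q) (h : x * (t ^ n)⁻¹ ∈ Q) : x ∈ Q := by
  have := Q.mul_mem h (Q.pow_mem ht n)
  rwa [inv_mul_cancel_right] at this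

theorem Y_le_of_mem {Q : Subgroup P} (hA : A ≤ Q) {w : P} (hw : w ∈ Q) (hwY : w ∈ Y) (hwA : w ∉ A) : Y ≤ Q := by
  intro y hy
  have hc : w.c ≠ 0 := fun h => hwA ⟨hwY.1, hwY.2, h⟩
  have hc' : w.c * w.c = 1 := sq_eq_one' hc
  refine mem_of_mul_pow (n := (y.c * w.c).val) hw (hA ⟨?_, ?_, ?_⟩)
  · simp [pow_a, hy.1, hwY.1]
  · simp [pow_b, hy.2, hwY.2]
  · rw [mul_c, inv_c, pow_c hwY.1, pow_a, pow_b, hwY.1, hwY.2, hy.1, ZMod.natCast_zmod_val]
    linear_combination (-y.c) * hc'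

theorem exists_regular {Q : Subgroup P} (h1 : ¬ Q ≤ R1) (h2 : ¬ Q ≤ R2) : ∃ t ∈ Q, t.a ≠ 0 ∧ t.b ≠ 0 := by
  obtain ⟨q1, hq1, ha⟩ := SetLike.not_le_iff_exists.1 h1
  obtain ⟨q2, hq2, hb⟩ := SetLike.not_le_iff_exists.1 h2
  rw [mem_R1] at ha
  rw [mem_R2] at hb
  by_cases hb1 : q1.b = 0
  · by_cases ha2 : q2.a = 0
    · exact ⟨q1 * q2, Q.mul_mem hq1 hq2, by rwa [mul_a, ha2, add_zero], by rwa [mul_b, hb1, zero_add]⟩
    · exact ⟨q2, hq2, ha2, hb⟩
  · exact ⟨q1, hq1, ha, hb1⟩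

/-- C11: the essential subgroups containing `A` -/
theorem essential_ge_A {F : FusionSystem (⊤ : Subgroup P)} (hF : F.IsSaturated 3) {Q : Subgroup P} (hQ : F.IsEssential 3 Q) (hA : A ≤ Q) :
    Q = A ∨ Q = R1 ∨ Q = R2 ∨ ∃ t : P, t.a ≠ 0 ∧ t.b ≠ 0 ∧ Q = A ⊔ zpowers t := by
  by_cases hQA : Q = A
  · exact Or.inl hQA
  by_cases h1 : Q ≤ R1
  · exact Or.inr (Or.inl (case_R1 hQ hA h1 hQA))
  by_cases h2 : Q ≤ R2
  · exact Or.inr (Or.inr (Or.inl (case_R2 hQ hA h2 hQA)))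
  obtain ⟨t, htQ, ha, hb⟩ := exists_regular h1 h2
  refine Or.inr (Or.inr (Or.inr ⟨t, ha, hb, ?_⟩))
  by_contra hne
  have hle : A ⊔ zpowers t ≤ Q := sup_le hA ((zpowers_le).2 htQ)
  obtain ⟨q, hqQ, hq⟩ := SetLike.exists_of_lt (lt_of_le_of_ne hle (Ne.symm hne))
  have ha' : t.a * t.a = 1 := sq_eq_one' ha
  have hb' : t.b * t.b = 1 := sq_eq_one' hb
  -- reduction of elements of `H` modulo `Y`
  have hred : ∀ x : P, x.a * t.b = x.b * t.a → x * (t ^ (x.a * t.a).val)⁻¹ ∈ Y := by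
    intro x hx
    refine ⟨?_, ?_⟩
    · rw [mul_a, inv_a, pow_a, ZMod.natCast_zmod_val]
      linear_combination (-x.a) * ha'
    · rw [mul_b, inv_b, pow_b, ZMod.natCast_zmod_val]
      linear_combination (-x.b) * ha' - t.a * hx
  -- `Y ≤ Q`
  have hY : Y ≤ Q := by
    by_cases hprop : q.a * t.b = q.b * t.a
    · refine Y_le_of_mem hA (Q.mul_mem hqQ (Q.inv_mem (Q.pow_mem htQ _))) (hred q hprop) fun h => hq ?_
      exact mem_of_mul_pow (le_sup_right (a := A) (mem_zpowers t)) (le_sup_left (b := zpowers t) h)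
    · refine Y_le_of_mem hA (w := t * q * t⁻¹ * q⁻¹)
        (Q.mul_mem (Q.mul_mem (Q.mul_mem htQ hqQ) (Q.inv_mem htQ)) (Q.inv_mem hqQ)) ⟨by simp, by simp⟩ fun h => hprop ?_
      have h3 := h.2.2
      simp at h3
      linear_combination -h3
  by_cases hH : Q ≤ H t.a t.b
  · have hQH : Q = H t.a t.b := by
      refine le_antisymm hH fun x hx => ?_
      exact mem_of_mul_pow htQ (hY (hred x hx))
    rw [hQH] at hQ
    exact case_H ha hb hQ
  · obtain ⟨r, hrQ, hr⟩ := SetLike.not_le_iff_exists.1 hH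
    rw [mem_H] at hr
    apply Cfsg.Agent.H802.ne_of_isEssential hPtop hF hQ
    rw [eq_top_iff]
    intro x _
    have hD : (t.a * r.b - t.b * r.a) * (t.a * r.b - t.b * r.a) = 1 :=
      sq_eq_one' fun h => hr (by linear_combination -h)
    set D := t.a * r.b - t.b * r.a with hDdef
    refine mem_of_mul_pow (n := (D * (t.a * x.b - t.b * x.a)).val) hrQ ?_
    refine mem_of_mul_pow (n := (D * (x.a * r.b - x.b * r.a)).val) htQ (hY ⟨?_, ?_⟩)
    · rw [mul_a, mul_a, inv_a, inv_a, pow_a, pow_a, ZMod.natCast_zmod_val, ZMod.natCast_zmod_val]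
      linear_combination (-x.a) * hD - D * x.a * hDdef
    · rw [mul_b, mul_b, inv_b, inv_b, pow_b, pow_b, ZMod.natCast_zmod_val, ZMod.natCast_zmod_val]
      linear_combination (-x.b) * hD - D * x.b * hDdef

end Cfsg.Agent.H615.Co1
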