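import Cfsg.Agent.H975.Co1.GF

/-!
# Automorphisms of `A⟨t⟩`, `t` regular (S5227, task 3770; helper615)
-/

set_option autoImplicit false
set_option linter.style.longLine false

namespace Cfsg.Agent.H615.Co1

open Subgroup Cfsg Cfsg.Agent.H752 Cfsg.Agent.H776.Co P
open Cfsg.Agent.H975.Co1 (mem_of_A exists_GF ext_GF)

theorem tl_injective {a b c a' b' c' : ZMod 3} (h : Lin.tl a b c = Lin.tl a' b' c') : a = a' ∧ b = b' ∧ c = c' := by
  have e1 := congrArg (fun g : Lin.L => g ![0, 0, 0, 0, 1, 0]) h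
  have e2 := congrArg (fun g : Lin.L => g ![0, 0, 0, 0, 0, 1]) h
  have f1 := congrFun e1 3
  have f2 := congrFun e2 3
  have f3 := congrFun e2 4
  simp [Lin.tf] at f1 f2 f3
  exact ⟨f1, f3, f2⟩

theorem sq_eq_one2 {a : ZMod 3} (h : a ≠ 0) : a * a = 1 := by
  revert a
  decide

/-- the cohomological computation: `ker (1 + s + s²) = im (1 - s)` -/
theorem exists_coboundary {a b c : ZMod 3} (ha : a ≠ 0) (hb : b ≠ 0) {d : Lin.V}
    (h : d + Lin.tf a b c d + Lin.tf a b c (Lin.tf a b c d) = 0) : ∃ e : Lin.V, d = e - Lin.tf a b c e := by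
  have h30 : (3 : ZMod 3) = 0 := rfl
  have ha' : a * a = 1 := sq_eq_one2 ha
  have hb' : b * b = 1 := sq_eq_one2 hb
  have e3 : d 3 + (d 3 + a * d 4 + c * d 5) + ((d 3 + a * d 4 + c * d 5) + a * (d 4 + b * d 5) + c * d 5) = 0 := congrFun h 3
  have e0 : d 0 + (d 0 + 2 * a * d 1 + 2 * c * d 3 + a ^ 2 * d 2 + 2 * a * c * d 4 + c ^ 2 * d 5) +
      (d 0 + 2 * a * d 1 + 2 * c * d 3 + a ^ 2 * d 2 + 2 * a * c * d 4 + c ^ 2 * d 5 +
        2 * a * (d 1 + a * d 2 + c * d 4 + b * (d 3 + a * d 4 + c * d 5)) + 2 * c * (d 3 + a * d 4 + c * d 5) +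
        a ^ 2 * (d 2 + 2 * b * d 4 + b ^ 2 * d 5) + 2 * a * c * (d 4 + b * d 5) + c ^ 2 * d 5) = 0 := congrFun h 0
  have k5 : d 5 = 0 := by
    have e3' : a * b * d 5 = 0 := by linear_combination e3 - (d 3 + a * d 4 + c * d 5) * h30
    linear_combination a * b * e3' - a * a * d 5 * hb' - d 5 * ha'
  rw [k5] at e0
  have hR : d 2 + a * b * d 3 - (a * c + b) * d 4 = 0 := by
    linear_combination 2 * e0 + (-10 * d 2 - 8 * b * d 4) * ha' +
      (-3 * d 2 - a * b * d 3 - 7 * a * c * d 4 - 3 * b * d 4 - 2 * (d 0 + 2 * a * d 1 + 2 * c * d 3)) * h30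
  set w5 := -b * d 4 with hw5
  set w4 := a * (-d 3 - c * w5) with hw4
  set w2 := a * (-d 1 - c * w4 - a * b * w4 - b * c * w5) with hw2
  set w1 := 2 * a * (-d 0 - a ^ 2 * w2 - 2 * a * c * w4 - c ^ 2 * w5) with hw1
  refine ⟨![0, w1, w2, 0, w4, w5], ?_⟩
  funext i
  fin_cases i
  · simp [Lin.tf]
    linear_combination (2 * a) * hw1 + (4 * (-d 0 - a ^ 2 * w2 - 2 * a * c * w4 - c ^ 2 * w5)) * ha' + (-d 0 - a ^ 2 * w2 - 2 * a * c * w4 - c ^ 2 * w5) * h30
  · simp [Lin.tf]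
    linear_combination a * hw2 + (-d 1 - c * w4 - a * b * w4 - b * c * w5) * ha'
  · simp [Lin.tf]
    linear_combination hR + (2 * b) * hw4 + (b ^ 2 - 2 * b * a * c) * hw5 + ((2 * a * c - b) * d 4) * hb' + (-a * b * d 3 + a * c * d 4) * h30
  · simp [Lin.tf]
    linear_combination a * hw4 + (-d 3 - c * w5) * ha'
  · simp [Lin.tf]
    linear_combination b * hw5 - d 4 * hb'
  · simpa [Lin.tf] using k5

theorem cube_mem (t : P) : t ^ 3 ∈ A := by
  have h30 : (3 : ZMod 3) = 0 := rfl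
  rw [pow_succ, pow_two, mem_A]
  refine ⟨?_, ?_, ?_⟩
  · simp only [mul_a]
    linear_combination t.a * h30
  · simp only [mul_b]
    linear_combination t.b * h30
  · simp only [mul_a, mul_c]
    linear_combination (t.c + t.a * t.b) * h30

theorem cube_mul (s : P) (d : Lin.V) :
    (vec d * s) ^ 3 = vec (d + Lin.tf s.a s.b s.c d + Lin.tf s.a s.b s.c (Lin.tf s.a s.b s.c d)) * s ^ 3 := by
  rw [vec_add, vec_add, ← conj_vec s d, ← conj_vec s (Lin.tf s.a s.b s.c d), ← conj_vec s d]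
  simp only [pow_succ, pow_zero, one_mul]
  group

/-- `A⟨t⟩` is contained in the set of elements whose image in `T` is a power of the image of `t` -/
theorem mem_sup {t x : P} (hx : x ∈ A ⊔ zpowers t) : ∃ k : ZMod 3, x.a = k * t.a ∧ x.b = k * t.b ∧ x.c = k * t.c + (k - k ^ 2) * (t.a * t.b) := by
  have h30 : (3 : ZMod 3) = 0 := rfl
  let K : Subgroup P :=
    { carrier := {x | ∃ k : ZMod 3, x.a = k * t.a ∧ x.b = k * t.b ∧ x.c = k * t.c + (k - k ^ 2) * (t.a * t.b)}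
      mul_mem' := by
        rintro x y ⟨k, h1, h2, h3⟩ ⟨l, h4, h5, h6⟩
        refine ⟨k + l, ?_, ?_, ?_⟩
        · rw [mul_a, h1, h4]; ring
        · rw [mul_b, h2, h5]; ring
        · rw [mul_c, h3, h6, h1, h5]
          linear_combination (k * l * t.a * t.b) * h30
      one_mem' := ⟨0, by simp, by simp, by simp⟩
      inv_mem' := by
        rintro x ⟨k, h1, h2, h3⟩
        refine ⟨-k, ?_, ?_, ?_⟩
        · rw [inv_a, h1]; ring
        · rw [inv_b, h2]; ring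
        · rw [inv_c, h3, h1, h2]
          linear_combination (k ^ 2 * t.a * t.b) * h30 }
  have hle : A ⊔ zpowers t ≤ K := by
    refine sup_le ?_ ?_
    · rintro y ⟨h1, h2, h3⟩
      exact ⟨0, by simp [h1], by simp [h2], by simp [h3]⟩
    · rw [zpowers_le]
      exact ⟨1, by ring, by ring, by ring⟩
  exact hle hx

/-- the images in `T` -/
theorem conj_tl {F : FusionSystem (⊤ : Subgroup P)} {R : Subgroup P} {f : P → P} (hR : A ≤ R) (hf : Mp F R f) {g : Lin.L}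
    (hg : ∀ x ∈ A, f x = lft g x) {r : P} (hr : r ∈ R) :
    g * Lin.tl r.a r.b r.c * g⁻¹ = Lin.tl (f r).a (f r).b (f r).c := by
  rw [mul_inv_eq_iff_eq_mul]
  apply LinearEquiv.ext
  intro v
  show g (Lin.tf r.a r.b r.c v) = Lin.tf (f r).a (f r).b (f r).c (g v)
  apply vec_injective
  rw [← conj_vec (f r), ← lft_vec, ← lft_vec, ← hg _ (vec_mem _), ← hg _ (vec_mem v), ← hf.inv hr,
    ← hf.mul hr (hR (vec_mem v)), ← hf.mul (R.mul_mem hr (hR (vec_mem v))) (R.inv_mem hr), conj_vec]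

theorem agree_on_sup {f f' : P → P} {F F' : FusionSystem (⊤ : Subgroup P)} {B : Subgroup P} {t : P} (hf : Mp F (B ⊔ zpowers t) f)
    (hf' : Mp F' (B ⊔ zpowers t) f') (h1 : ∀ x ∈ B, f x = f' x) (h2 : f t = f' t) : ∀ x ∈ B ⊔ zpowers t, f x = f' x := by
  intro x hx
  have hB : B ≤ B ⊔ zpowers t := le_sup_left
  have hT : zpowers t ≤ B ⊔ zpowers t := le_sup_right
  let K : Subgroup P :=
    { carrier := {x | x ∈ B ⊔ zpowers t ∧ f x = f' x}
      mul_mem' := by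
        rintro x y ⟨hx, h3⟩ ⟨hy, h4⟩
        exact ⟨mul_mem hx hy, by rw [hf.mul hx hy, hf'.mul hx hy, h3, h4]⟩
      one_mem' := ⟨one_mem _, by rw [hf.one, hf'.one]⟩
      inv_mem' := by
        rintro x ⟨hx, h3⟩
        exact ⟨inv_mem hx, by rw [hf.inv hx, hf'.inv hx, h3]⟩ }
  have hle : B ⊔ zpowers t ≤ K := by
    refine sup_le (fun y hy => ⟨hB hy, h1 y hy⟩) ?_
    rw [zpowers_le]
    exact ⟨hT (mem_zpowers t), h2⟩
  exact (hle hx).2

/-- C11: the automorphisms of `A⟨t⟩`, `t` regular, are determined by `GF` -/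
theorem auts_reg {F F' : FusionSystem (⊤ : Subgroup P)} (_hF : F.IsSaturated 3) (hF' : F'.IsSaturated 3) (hG : GF F ≤ GF F')
    {t : P} (ha : t.a ≠ 0) (hb : t.b ≠ 0) :
    ∀ f, Mp F (A ⊔ zpowers t) f → (∀ x ∈ A ⊔ zpowers t, f x ∈ A ⊔ zpowers t) → Mp F' (A ⊔ zpowers t) f := by
  intro f hf hfQ
  have hA : A ≤ A ⊔ zpowers t := le_sup_left
  have htQ : t ∈ A ⊔ zpowers t := le_sup_right (a := A) (mem_zpowers t)
  obtain ⟨g, hg, hgf⟩ := exists_GF hA hf
  obtain ⟨f', hf', hf'A, hf'T⟩ := ext_GF hF' (hG hg) hA (fun r hr => by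
    rw [conj_tl hA hf hgf hr]
    exact ⟨_, _, _, rfl⟩)
  -- `f t` and `f' t` have the same image in `T`
  have hft := hf'T t htQ
  rw [conj_tl hA hf hgf htQ] at hft
  obtain ⟨ea, eb, ec⟩ := tl_injective hft
  -- this image is regular
  obtain ⟨k, ka, kb, kc⟩ := mem_sup (hfQ t htQ)
  have hk : k ≠ 0 := by
    rintro rfl
    have h1 := conj_tl hA hf hgf htQ
    rw [ka, kb, kc] at h1
    simp only [zero_mul, zero_add, ne_eq, OfNat.ofNat_ne_zero, not_false_eq_true, zero_pow, sub_self] at h1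
    rw [Lin.tl_one, mul_inv_eq_one, mul_eq_left, ← Lin.tl_one] at h1
    exact ha (tl_injective h1).1
  have hsa : (f' t).a ≠ 0 := by rw [ea, ka]; exact mul_ne_zero hk ha
  have hsb : (f' t).b ≠ 0 := by rw [eb, kb]; exact mul_ne_zero hk hb
  -- the difference
  have hdA : f t * (f' t)⁻¹ ∈ A := ⟨by simp [ea], by simp [eb], by simp [ea, eb, ec]⟩
  set d := crd (f t * (f' t)⁻¹) with hd
  have hd1 : f t = vec d * f' t := by rw [hd, vec_crd hdA, inv_mul_cancel_right]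
  have hcube : f (t ^ 3) = f' (t ^ 3) := by rw [hgf _ (cube_mem t), hf'A _ (cube_mem t)]
  rw [hf.pow htQ, hf'.pow htQ, hd1, cube_mul, mul_eq_right, ← vec_zero, vec_injective.eq_iff] at hcube
  obtain ⟨e, he⟩ := exists_coboundary hsa hsb hcube
  have hm : Mp F' (A ⊔ zpowers t) (fun x => vec e * f' x * (vec e)⁻¹) :=
    hf'.comp (mp_conj F' le_top (mem_top (vec e))) (fun x _ => mem_top _)
  refine hm.congr (agree_on_sup hf hm ?_ ?_)
  · intro x hx
    rw [hgf x hx, ← hf'A x hx]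
    have h1 : f' x ∈ A := by rw [hf'A x hx]; exact lft_mem g x
    rw [eq_mul_inv_iff_mul_eq, ← vec_crd h1, ← vec_add, ← vec_add, add_comm]
  · rw [hd1, he, sub_eq_add_neg, vec_add]
    have h1 : vec (-Lin.tf (f' t).a (f' t).b (f' t).c e) = f' t * (vec e)⁻¹ * (f' t)⁻¹ := by
      have h2 : vec (Lin.tf (f' t).a (f' t).b (f' t).c e) * vec (-Lin.tf (f' t).a (f' t).b (f' t).c e) = 1 := by
        rw [← vec_add, add_neg_cancel, vec_zero]
      rw [← inv_eq_of_mul_eq_one_right h2, ← conj_vec]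
      group
    rw [h1]
    group

end Cfsg.Agent.H615.Co1
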